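import Cfsg.Agent.H813.Hall.E6Three

/-!
# S2223, the row `²E₆(q)`, `q ≡ 5 mod 8` (helper361, task HALLPRO2 E-10)
-/

set_option autoImplicit false

namespace Cfsg.Agent.H361.Hall.E6Five

open Cfsg.Lie Cfsg.Agent.ChevalleyStructure.E6Min.Tables Cfsg.Agent.ChevalleyStructure.E6Min.Basic
  Cfsg.Agent.ChevalleyStructure.E6Min.Torus Cfsg.Agent.ChevalleyStructure.E6Min.Checks2 Cfsg.Agent.H125.Hall.E6
  Cfsg.Agent.H125.Hall Cfsg.Agent.H813.Hall.E6Three
open scoped Matrix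

section

variable {K : Type*} [Field K]

/-- monomial matrices with entries powers of `a` -/
def pz (a : K) (f : ℕ → ℕ) (m : ℕ → ℤ) : Matrix I27 I27 K :=
  Matrix.of fun x y => if y = dec (f (code x)) then a ^ m (code x) else 0

theorem pz_apply (a : K) (f : ℕ → ℕ) (m : ℕ → ℤ) (x y : I27) :
    pz a f m x y = if y = dec (f (code x)) then a ^ m (code x) else 0 := rfl

theorem pz_mulVec (a : K) (f : ℕ → ℕ) (m : ℕ → ℤ) (v : I27 → K) (x : I27) :
    (pz a f m *ᵥ v) x = a ^ m (code x) * v (dec (f (code x))) := by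
  simp [Matrix.mulVec, dotProduct, pz_apply]

theorem a_ne {a : K} (ha : a ^ 4 = -1) : a ≠ 0 := by
  rintro rfl
  norm_num at ha

theorem zpow_congr8 {a : K} (ha : a ^ 4 = -1) {m n : ℤ} (h : (m - n) % 8 = 0) : a ^ m = a ^ n := by
  have h8 : a ^ (8 : ℤ) = 1 := by
    have : a ^ (8 : ℤ) = a ^ 4 * a ^ 4 := by
      rw [show (8 : ℤ) = ((8 : ℕ) : ℤ) by norm_num, zpow_natCast]; ring
    rw [this, ha]; ring
  obtain ⟨k, hk⟩ := Int.dvd_of_emod_eq_zero h
  have h5 : m = n + 8 * k := by omega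
  rw [h5, zpow_add₀ (a_ne ha), zpow_mul, h8, one_zpow, mul_one]

theorem zpow_congr8' {a : K} (ha : a ^ 4 = -1) {m n : ℤ} (h : (m - n - 4) % 8 = 0) : a ^ m = - a ^ n := by
  rw [zpow_congr8 ha (n := n + 4) (by omega), zpow_add₀ (a_ne ha), show (4 : ℤ) = ((4 : ℕ) : ℤ) by norm_num,
    zpow_natCast, ha, mul_neg, mul_one]

/-- the exponents of the torus part -/
def eT (e : ℕ → ℤ) (j : ℕ) : ℤ :=
  e 0 * lbN j 0 + e 5 * lbN j 5 + (e 2 * lbN j 2 + e 4 * lbN j 4) + (e 1 * lbN j 1 + e 3 * lbN j 3)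

/-- the torus part -/
def tG (a : K) (e : ℕ → ℤ) : GL I27 K :=
  hU 0 (a ^ e 0) * hU 5 (a ^ e 5) * (hU 2 (a ^ e 2) * hU 4 (a ^ e 4)) * (hU 1 (a ^ e 1) * hU 3 (a ^ e 3))

theorem coe_tG {a : K} (ha : a ≠ 0) (e : ℕ → ℤ) :
    ((tG a e : GL I27 K) : Matrix I27 I27 K) = Matrix.diagonal fun x => a ^ eT e (code x) := by
  unfold tG
  rw [Units.val_mul, Units.val_mul, Units.val_mul, Units.val_mul, Units.val_mul,
    coe_hU (by norm_num) (zpow_ne_zero _ ha), coe_hU (by norm_num) (zpow_ne_zero _ ha),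
    coe_hU (by norm_num) (zpow_ne_zero _ ha), coe_hU (by norm_num) (zpow_ne_zero _ ha),
    coe_hU (by norm_num) (zpow_ne_zero _ ha), coe_hU (by norm_num) (zpow_ne_zero _ ha),
    Matrix.diagonal_mul_diagonal, Matrix.diagonal_mul_diagonal, Matrix.diagonal_mul_diagonal,
    Matrix.diagonal_mul_diagonal, Matrix.diagonal_mul_diagonal]
  congr 1
  funext x
  unfold eT wt
  rw [← zpow_mul, ← zpow_mul, ← zpow_mul, ← zpow_mul, ← zpow_mul, ← zpow_mul, ← zpow_add₀ ha, ← zpow_add₀ ha,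
    ← zpow_add₀ ha, ← zpow_add₀ ha, ← zpow_add₀ ha]

/-- the element `τ n_r` -/
def yG5 (a : K) (e : ℕ → ℤ) (r : ℕ) : GL I27 K := tG a e * nG K r

/-- its exponents -/
def mY (e : ℕ → ℤ) (r j : ℕ) : ℤ := eT e j + (if ns r j == 1 then 0 else 4)

/-- the entries of `n_r` are `±1` -/
def nchk (r : ℕ) : Bool := allLt 27 fun j => (ns r j == 1) || (ns r j == -1)

theorem coe_yG5 {a : K} (ha : a ^ 4 = -1) (e : ℕ → ℤ) {r : ℕ} (hr : r < 72) (h : nchk r = true) :
    ((yG5 a e r : GL I27 K) : Matrix I27 I27 K) = pz a (nf r) (mY e r) := by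
  unfold yG5
  rw [Units.val_mul, coe_tG (a_ne ha), coe_nG hr]
  ext x y
  rw [Matrix.diagonal_mul, mono_apply, pz_apply]
  have h1 := allLt_spec h (code x) (code_lt x)
  rw [Bool.or_eq_true, beq_iff_eq, beq_iff_eq] at h1
  by_cases hy : y = dec (nf r (code x))
  · rw [if_pos hy, if_pos hy]
    rcases h1 with h1 | h1
    · have e1 : mY e r (code x) = eT e (code x) := by simp [mY, h1]
      rw [e1, h1, Int.cast_one, mul_one]
    · have e1 : mY e r (code x) = eT e (code x) + 4 := by simp [mY, h1]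
      rw [e1, h1, zpow_congr8' ha (m := eT e (code x) + 4) (n := eT e (code x)) (by omega)]
      push_cast
      ring
  · rw [if_neg hy, if_neg hy, mul_zero]

/-- test for `y N_r = a^c N_s y` -/
def cchk8 (f : ℕ → ℕ) (m : ℕ → ℤ) (r s : ℕ) (c : ℤ) : Bool :=
  allLt 27 fun j => (sgN r (f j) == 0 && sgN s j == 0) || (srN r (f j) == f (srN s j) &&
    ((sgN r (f j) == sgN s j && (m j - (c + m (srN s j))) % 8 == 0) ||
      (sgN r (f j) == - sgN s j && (m j - (c + m (srN s j)) - 4) % 8 == 0)))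

theorem conj_eq8 {a : K} (ha : a ^ 4 = -1) {f : ℕ → ℕ} {m : ℕ → ℤ} (hf : ∀ j, j < 27 → f j < 27) {r s : ℕ}
    (hs : s < 72) {c : ℤ} (h : cchk8 f m r s c = true) :
    pz a f m * Nm K r = a ^ c • (Nm K s * pz a f m) := by
  ext x z
  have h1 := allLt_spec h (code x) (code_lt x)
  rw [Matrix.smul_apply, Nm_mul_apply, Matrix.mul_apply, Finset.sum_eq_single (dec (f (code x)))]
  rotate_left
  · intro w _ hw
    rw [pz_apply, if_neg hw, zero_mul]
  · intro h
    exact absurd (Finset.mem_univ _) h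
  rw [pz_apply, if_pos rfl, Nm_apply, pz_apply, code_sr hs, smul_eq_mul]
  have e1 : sg r (dec (f (code x))) = sgN r (f (code x)) := by
    unfold sg; rw [code_dec (hf _ (code_lt x))]
  have e2 : sr r (dec (f (code x))) = dec (srN r (f (code x))) := by
    unfold sr; rw [code_dec (hf _ (code_lt x))]
  have e3 : sg s x = sgN s (code x) := rfl
  rw [e1, e2, e3]
  rw [Bool.or_eq_true, Bool.and_eq_true, Bool.and_eq_true, Bool.or_eq_true, Bool.and_eq_true, Bool.and_eq_true,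
    beq_iff_eq, beq_iff_eq, beq_iff_eq, beq_iff_eq, beq_iff_eq, beq_iff_eq, beq_iff_eq] at h1
  rcases h1 with ⟨h1, h2⟩ | ⟨h1, h2⟩
  · rw [h1, h2]; simp
  · rw [h1]
    by_cases hz : z = dec (f (srN s (code x)))
    · rw [if_pos hz, if_pos hz]
      rcases h2 with ⟨h2, h3⟩ | ⟨h2, h3⟩
      · rw [h2, zpow_congr8 ha h3, zpow_add₀ (a_ne ha)]
        ring
      · rw [h2, zpow_congr8' ha h3, zpow_add₀ (a_ne ha)]
        push_cast
        ring
    · rw [if_neg hz, if_neg hz]; simp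

/-- conjugation of `Ph` -/
theorem nrm_of1 (k0 : Subfield K) {y : Matrix I27 I27 K} {l : Fin 4} {c : K} (hc0 : c ≠ 0) (hc : c ∈ k0)
    (h1 : y * Nm K (bI l) = c • (Nm K (bI l) * y)) (h2 : y * Nm K (71 - bI l) = c⁻¹ • (Nm K (71 - bI l) * y)) :
    ∀ A, SlIn k0 A → ∃ A', SlIn k0 A' ∧ y * Ph l A = Ph l A' * y := by
  intro A hA
  have e1 : y * (Nm K (bI l) * Nm K (71 - bI l)) = Nm K (bI l) * Nm K (71 - bI l) * y := by
    rw [← mul_assoc, h1, smul_mul_assoc, mul_assoc, h2, mul_smul_comm, smul_smul, mul_inv_cancel₀ hc0, one_smul,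
      mul_assoc]
  have e2 : y * (Nm K (71 - bI l) * Nm K (bI l)) = Nm K (71 - bI l) * Nm K (bI l) * y := by
    rw [← mul_assoc, h2, smul_mul_assoc, mul_assoc, h1, mul_smul_comm, smul_smul, inv_mul_cancel₀ hc0, one_smul,
      mul_assoc]
  refine ⟨!![A 0 0, c * A 0 1; c⁻¹ * A 1 0, A 1 1], ⟨?_, ?_⟩, ?_⟩
  · have := hA.1
    rw [Matrix.det_fin_two] at this
    rw [Matrix.det_fin_two_of, ← this]
    field_simp
  · intro i j
    fin_cases i <;> fin_cases j
    · exact hA.2 0 0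
    · exact mul_mem hc (hA.2 0 1)
    · exact mul_mem (inv_mem hc) (hA.2 1 0)
    · exact hA.2 1 1
  · simp only [Ph, mul_add, add_mul, mul_one, one_mul, Matrix.mul_smul, Matrix.smul_mul, e1, e2, h1, h2,
      Matrix.of_apply, Matrix.cons_val', Matrix.cons_val_zero, Matrix.cons_val_one, Matrix.cons_val_fin_one, smul_smul]
    rw [mul_comm (A 0 1) c, mul_comm (A 1 0) c⁻¹]

theorem nrm_of2 (k0 : Subfield K) {y : Matrix I27 I27 K} {l : Fin 4} {c : K} (hc0 : c ≠ 0) (hc : c ∈ k0)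
    (h1 : y * Nm K (bI l) = c • (Nm K (71 - bI l) * y)) (h2 : y * Nm K (71 - bI l) = c⁻¹ • (Nm K (bI l) * y)) :
    ∀ A, SlIn k0 A → ∃ A', SlIn k0 A' ∧ y * Ph l A = Ph l A' * y := by
  intro A hA
  have e1 : y * (Nm K (bI l) * Nm K (71 - bI l)) = Nm K (71 - bI l) * Nm K (bI l) * y := by
    rw [← mul_assoc, h1, smul_mul_assoc, mul_assoc, h2, mul_smul_comm, smul_smul, mul_inv_cancel₀ hc0, one_smul,
      mul_assoc]
  have e2 : y * (Nm K (71 - bI l) * Nm K (bI l)) = Nm K (bI l) * Nm K (71 - bI l) * y := by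
    rw [← mul_assoc, h2, smul_mul_assoc, mul_assoc, h1, mul_smul_comm, smul_smul, inv_mul_cancel₀ hc0, one_smul,
      mul_assoc]
  refine ⟨!![A 1 1, c⁻¹ * A 1 0; c * A 0 1, A 0 0], ⟨?_, ?_⟩, ?_⟩
  · have := hA.1
    rw [Matrix.det_fin_two] at this
    rw [Matrix.det_fin_two_of, ← this]
    field_simp
  · intro i j
    fin_cases i <;> fin_cases j
    · exact hA.2 1 1
    · exact mul_mem (inv_mem hc) (hA.2 1 0)
    · exact mul_mem hc (hA.2 0 1)
    · exact hA.2 0 0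
  · simp only [Ph, mul_add, add_mul, mul_one, one_mul, Matrix.mul_smul, Matrix.smul_mul, e1, e2, h1, h2,
      Matrix.of_apply, Matrix.cons_val', Matrix.cons_val_zero, Matrix.cons_val_one, Matrix.cons_val_fin_one, smul_smul]
    rw [mul_comm (A 0 1) c, mul_comm (A 1 0) c⁻¹]
    abel

/-- test: the fourth power is `z_k` -/
def qchk8 (f : ℕ → ℕ) (m : ℕ → ℤ) (k : Fin 4) : Bool :=
  allLt 27 fun j => (f (f j) == j) && (((2 * (m j + m (f j))) % 8 == 0 &&
      (1 - 2 * indN (bI k) j - 2 * indN (71 - bI k) j == 1)) ||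
    ((2 * (m j + m (f j)) - 4) % 8 == 0 && (1 - 2 * indN (bI k) j - 2 * indN (71 - bI k) j == -1)))

theorem pz_sq {a : K} (ha : a ≠ 0) {f : ℕ → ℕ} {m : ℕ → ℤ} (hf : ∀ j, j < 27 → f j < 27)
    (hff : ∀ j, j < 27 → f (f j) = j) :
    pz a f m * pz a f m = Matrix.diagonal fun x => a ^ (m (code x) + m (f (code x))) := by
  ext x z
  rw [Matrix.mul_apply, Finset.sum_eq_single (dec (f (code x)))]
  rotate_left
  · intro w _ hw
    rw [pz_apply, if_neg hw, zero_mul]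
  · intro h
    exact absurd (Finset.mem_univ _) h
  rw [pz_apply, if_pos rfl, pz_apply, code_dec (hf _ (code_lt x)), hff _ (code_lt x), dec_code, Matrix.diagonal_apply]
  by_cases hz : x = z
  · subst hz
    rw [if_pos rfl, if_pos rfl, zpow_add₀ ha]
  · rw [if_neg hz, if_neg (Ne.symm hz), mul_zero]

theorem pz_pow_four {a : K} (ha : a ^ 4 = -1) {f : ℕ → ℕ} {m : ℕ → ℤ} (hf : ∀ j, j < 27 → f j < 27) {k : Fin 4}
    (h : qchk8 f m k = true) : (pz a f m) ^ 4 = Ph k (-1) := by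
  have hff : ∀ j, j < 27 → f (f j) = j := by
    intro j hj
    have h1 := allLt_spec h j hj
    rw [Bool.and_eq_true, beq_iff_eq] at h1
    exact h1.1
  have e : (pz a f m) ^ 4 = (pz a f m * pz a f m) * (pz a f m * pz a f m) := by
    rw [show (4 : ℕ) = 2 + 2 by norm_num, pow_add, pow_two]
  rw [e, pz_sq (a_ne ha) hf hff, Matrix.diagonal_mul_diagonal, Ph_neg_one]
  congr 1
  funext x
  have h1 := allLt_spec h (code x) (code_lt x)
  rw [Bool.and_eq_true, Bool.or_eq_true, Bool.and_eq_true, Bool.and_eq_true, beq_iff_eq, beq_iff_eq, beq_iff_eq,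
    beq_iff_eq, beq_iff_eq] at h1
  rw [← zpow_add₀ (a_ne ha)]
  rcases h1.2 with ⟨h2, h3⟩ | ⟨h2, h3⟩
  · rw [h3, zpow_congr8 ha (n := 0) (by omega), zpow_zero]
    norm_num
  · rw [h3, zpow_congr8' ha (n := 0) (by omega), zpow_zero]
    norm_num

/-- test for the rank -/
def rchk8 (f : ℕ → ℕ) (m : ℕ → ℤ) (u w u' w' : ℕ) : Bool :=
  (allLt 27 fun j => (f (f j) == j) && ((f j == j && ((m j) % 8 == 0 || (m j - 4) % 8 == 0 || (m j - 5) % 8 == 0 ||
      (m j - 7) % 8 == 0)) || ((m j + m (f j)) % 8 == 0) || j == u || j == w || j == u' || j == w')) &&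
    (f u == w && f w == u && f u' == w' && f w' == u' && (m u + m w - 2) % 8 == 0 && (m u' + m w' - 6) % 8 == 0) &&
    (Nat.blt u 27 && Nat.blt w 27 && Nat.blt u' 27 && Nat.blt w' 27) &&
    (u != w && u != u' && u != w' && w != u' && w != w' && u' != w')

/-- the polynomial -/
noncomputable def Pol5 (a : K) : Polynomial K :=
  (Polynomial.X + Polynomial.C 1) * (Polynomial.X - Polynomial.C 1) *
    ((Polynomial.X - Polynomial.C (a ^ 7)) * (Polynomial.X - Polynomial.C (a ^ 5)))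

theorem Pol5_eq (a : K) : Pol5 a = (Polynomial.X ^ 2 - Polynomial.C 1) *
    (Polynomial.X ^ 2 - Polynomial.C (a ^ 7 + a ^ 5) * Polynomial.X + Polynomial.C (a ^ 12)) := by
  have h1 : a ^ 12 = a ^ 7 * a ^ 5 := by ring
  unfold Pol5
  rw [h1, map_add, map_mul, map_one]
  ring

theorem Pol5_ne (a : K) : Pol5 a ≠ 0 :=
  mul_ne_zero (mul_ne_zero (Polynomial.X_add_C_ne_zero _) (Polynomial.X_sub_C_ne_zero _))
    (mul_ne_zero (Polynomial.X_sub_C_ne_zero _) (Polynomial.X_sub_C_ne_zero _))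

theorem Pol5_deg (a : K) : (Pol5 a).natDegree ≤ 4 := by
  unfold Pol5
  refine (Polynomial.natDegree_mul_le).trans ?_
  refine (Nat.add_le_add Polynomial.natDegree_mul_le Polynomial.natDegree_mul_le).trans ?_
  rw [Polynomial.natDegree_X_add_C, Polynomial.natDegree_X_sub_C, Polynomial.natDegree_X_sub_C,
    Polynomial.natDegree_X_sub_C]

theorem pz_rank {a : K} (ha : a ^ 4 = -1) {f : ℕ → ℕ} {m : ℕ → ℤ} (hf : ∀ j, j < 27 → f j < 27) {u w u' w' : ℕ}
    (h : rchk8 f m u w u' w' = true) :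
    Module.finrank K (LinearMap.range (Polynomial.aeval ((pz a f m).mulVecLin) (Pol5 a))) ≤ 2 := by
  have ha0 := a_ne ha
  unfold rchk8 at h
  simp only [Bool.and_eq_true, bne_iff_ne, Nat.blt_eq, beq_iff_eq] at h
  obtain ⟨⟨⟨h0, ⟨⟨⟨⟨f1, f2⟩, f3⟩, f4⟩, f5⟩, f6⟩, ⟨⟨u1, u2⟩, u3⟩, u4⟩, ⟨⟨⟨⟨n1, n2⟩, n3⟩, n4⟩, n5⟩, n6⟩ := h
  have hff : ∀ j, j < 27 → f (f j) = j := by
    intro j hj
    have h1 := allLt_spec h0 j hj
    rw [Bool.and_eq_true, beq_iff_eq] at h1
    exact h1.1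
  -- the action
  have h5 : a ^ 5 = -a := by linear_combination a * ha
  have h7 : a ^ 7 = -a ^ 3 := by linear_combination a ^ 3 * ha
  have h12 : a ^ 12 = -1 := by linear_combination (a ^ 8 - a ^ 4 + 1) * ha
  have key : ∀ (v : I27 → K) (x : I27), (Polynomial.aeval ((pz a f m).mulVecLin) (Pol5 a)) v x =
      (a ^ (m (code x) + m (f (code x))) - 1) * (a ^ (m (code x) + m (f (code x))) * v x -
        (a ^ 7 + a ^ 5) * (a ^ m (code x) * v (dec (f (code x)))) + a ^ 12 * v x) := by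
    intro v x
    have hsq : ∀ (v : I27 → K) (x : I27), ((pz a f m).mulVecLin ^ 2) v x =
        a ^ (m (code x) + m (f (code x))) * v x := by
      intro v x
      rw [pow_two, Module.End.mul_apply, Matrix.mulVecLin_apply, Matrix.mulVecLin_apply, Matrix.mulVec_mulVec,
        pz_sq ha0 hf hff, Matrix.mulVec_diagonal]
    rw [Pol5_eq, map_mul, map_sub, map_add, map_sub, map_mul, map_pow, Polynomial.aeval_X, Polynomial.aeval_C,
      Polynomial.aeval_C, Polynomial.aeval_C]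
    simp only [Module.End.mul_apply, LinearMap.add_apply, LinearMap.sub_apply, Module.algebraMap_end_apply,
      Pi.add_apply, Pi.sub_apply, hsq, Pi.smul_apply, smul_eq_mul, one_mul, Matrix.mulVecLin_apply, pz_mulVec]
    ring
  -- the two vectors
  let v1 : I27 → K := Pi.single (dec u) 1 + Pi.single (dec w) (a ^ (1 - m u))
  let v2 : I27 → K := Pi.single (dec u') 1 + Pi.single (dec w') (a ^ (3 - m u'))
  have hle : LinearMap.range (Polynomial.aeval ((pz a f m).mulVecLin) (Pol5 a)) ≤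
      Submodule.span K (Set.range ![v1, v2]) := by
    rintro _ ⟨v, rfl⟩
    set P := Polynomial.aeval ((pz a f m).mulVecLin) (Pol5 a) with hP
    have hmem1 : v1 ∈ Submodule.span K (Set.range ![v1, v2]) := Submodule.subset_span ⟨0, rfl⟩
    have hmem2 : v2 ∈ Submodule.span K (Set.range ![v1, v2]) := Submodule.subset_span ⟨1, rfl⟩
    have heq : P v = (P v (dec u)) • v1 + (P v (dec u')) • v2 := by
      have hcase : ∀ x : I27, x = dec u ∨ x = dec w ∨ x = dec u' ∨ x = dec w' ∨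
          (P v x = 0 ∧ x ≠ dec u ∧ x ≠ dec w ∧ x ≠ dec u' ∧ x ≠ dec w') := by
        intro x
        by_cases x1 : x = dec u
        · exact Or.inl x1
        by_cases x2 : x = dec w
        · exact Or.inr (Or.inl x2)
        by_cases x3 : x = dec u'
        · exact Or.inr (Or.inr (Or.inl x3))
        by_cases x4 : x = dec w'
        · exact Or.inr (Or.inr (Or.inr (Or.inl x4)))
        refine Or.inr (Or.inr (Or.inr (Or.inr ⟨?_, x1, x2, x3, x4⟩)))
        have h1 := allLt_spec h0 (code x) (code_lt x)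
        have g1 : code x ≠ u := fun h => x1 (by rw [← h, dec_code])
        have g2 : code x ≠ w := fun h => x2 (by rw [← h, dec_code])
        have g3 : code x ≠ u' := fun h => x3 (by rw [← h, dec_code])
        have g4 : code x ≠ w' := fun h => x4 (by rw [← h, dec_code])
        simp only [Bool.and_eq_true, Bool.or_eq_true, beq_iff_eq, g1, g2, g3, g4, or_false] at h1
        rw [key]
        rcases h1.2 with ⟨h2, h3⟩ | h2
        · rw [h2, dec_code]
          have e4 : ∀ n : ℤ, (m (code x) - n) % 8 = 0 → a ^ (m (code x) + m (code x)) = a ^ n * a ^ n ∧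
              a ^ m (code x) = a ^ n := by
            intro n hn
            refine ⟨?_, zpow_congr8 ha hn⟩
            rw [zpow_add₀ ha0, zpow_congr8 ha hn]
          rcases h3 with ((h3 | h3) | h3) | h3
          · obtain ⟨e5, e6⟩ := e4 0 (by omega)
            rw [e5, zpow_zero]; ring
          · obtain ⟨e5, e6⟩ := e4 4 h3
            rw [e5, show (4 : ℤ) = ((4 : ℕ) : ℤ) by norm_num, zpow_natCast, ha]; ring
          · obtain ⟨e5, e6⟩ := e4 5 h3
            rw [e5, e6, show (5 : ℤ) = ((5 : ℕ) : ℤ) by norm_num, zpow_natCast]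
            ring
          · obtain ⟨e5, e6⟩ := e4 7 h3
            rw [e5, e6, show (7 : ℤ) = ((7 : ℕ) : ℤ) by norm_num, zpow_natCast]
            ring
        · rw [zpow_congr8 ha (n := 0) (by omega), zpow_zero, sub_self, zero_mul]
      have hd : ∀ {b c : ℕ}, b < 27 → c < 27 → b ≠ c → dec b ≠ dec c := fun hb hc hbc h =>
        hbc ((dec_eq_iff hb hc).1 h)
      funext x
      rw [Pi.add_apply, Pi.smul_apply, Pi.smul_apply, smul_eq_mul, smul_eq_mul]
      rcases hcase x with rfl | rfl | rfl | rfl | ⟨h1, x1, x2, x3, x4⟩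
      · have e1 : v1 (dec u) = 1 := by simp [v1, hd u1 u2 n1]
        have e2 : v2 (dec u) = 0 := by simp [v2, hd u1 u3 n2, hd u1 u4 n3]
        rw [e1, e2]; ring
      · have e1 : v1 (dec w) = a ^ (1 - m u) := by simp [v1, (hd u1 u2 n1).symm]
        have e2 : v2 (dec w) = 0 := by simp [v2, hd u2 u3 n4, hd u2 u4 n5]
        rw [e1, e2, mul_zero, add_zero, key, key, code_dec u1, code_dec u2, f1, f2]
        have hAB : a ^ m u * (a ^ m u)⁻¹ = 1 := mul_inv_cancel₀ (zpow_ne_zero _ ha0)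
        have g1 : a ^ (1 - m u) = a * (a ^ m u)⁻¹ := by rw [zpow_sub₀ ha0, zpow_one, div_eq_mul_inv]
        have g2 : a ^ m w = a ^ 2 * (a ^ m u)⁻¹ := by
          rw [zpow_congr8 ha (n := 2 - m u) (by omega), zpow_sub₀ ha0, div_eq_mul_inv,
            show (2 : ℤ) = ((2 : ℕ) : ℤ) by norm_num, zpow_natCast]
        have g3 : a ^ (m u + m w) = a ^ 2 := by
          rw [zpow_congr8 ha (n := 2) (by omega), show (2 : ℤ) = ((2 : ℕ) : ℤ) by norm_num, zpow_natCast]
        have g4 : a ^ (m w + m u) = a ^ 2 := by rw [add_comm, g3]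
        rw [g3, g4, g1, g2, h5, h7, h12]
        generalize (a ^ m u)⁻¹ = B at *
        generalize a ^ m u = A at *
        linear_combination (-(a ^ 2 - 1) * v (dec w) + (a ^ 2 - 1) * B * v (dec u) * a) * ha +
          (-(a ^ 2 - 1) * v (dec w) * (a ^ 4 + a ^ 2)) * hAB
      · have e1 : v1 (dec u') = 0 := by simp [v1, (hd u1 u3 n2).symm, (hd u2 u3 n4).symm]
        have e2 : v2 (dec u') = 1 := by simp [v2, hd u3 u4 n6]
        rw [e1, e2]; ring
      · have e1 : v1 (dec w') = 0 := by simp [v1, (hd u1 u4 n3).symm, (hd u2 u4 n5).symm]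
        have e2 : v2 (dec w') = a ^ (3 - m u') := by simp [v2, (hd u3 u4 n6).symm]
        rw [e1, e2, mul_zero, zero_add, key, key, code_dec u3, code_dec u4, f3, f4]
        have hAB : a ^ m u' * (a ^ m u')⁻¹ = 1 := mul_inv_cancel₀ (zpow_ne_zero _ ha0)
        have g1 : a ^ (3 - m u') = a ^ 3 * (a ^ m u')⁻¹ := by
          rw [zpow_sub₀ ha0, div_eq_mul_inv, show (3 : ℤ) = ((3 : ℕ) : ℤ) by norm_num, zpow_natCast]
        have g2 : a ^ m w' = a ^ 6 * (a ^ m u')⁻¹ := by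
          rw [zpow_congr8 ha (n := 6 - m u') (by omega), zpow_sub₀ ha0, div_eq_mul_inv,
            show (6 : ℤ) = ((6 : ℕ) : ℤ) by norm_num, zpow_natCast]
        have g3 : a ^ (m u' + m w') = a ^ 6 := by
          rw [zpow_congr8 ha (n := 6) (by omega), show (6 : ℤ) = ((6 : ℕ) : ℤ) by norm_num, zpow_natCast]
        have g4 : a ^ (m w' + m u') = a ^ 6 := by rw [add_comm, g3]
        rw [g3, g4, g1, g2, h5, h7, h12]
        generalize (a ^ m u')⁻¹ = B at *
        generalize a ^ m u' = A at *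
        linear_combination (-(a ^ 6 - 1) * v (dec w') + (a ^ 6 - 1) * B * v (dec u') * a ^ 3) * ha +
          (-(a ^ 6 - 1) * v (dec w') * (a ^ 6 + a ^ 4)) * hAB
      · have e1 : v1 x = 0 := by simp [v1, x1, x2]
        have e2 : v2 x = 0 := by simp [v2, x3, x4]
        rw [e1, e2, h1]; ring
    rw [heq]
    exact add_mem (Submodule.smul_mem _ _ hmem1) (Submodule.smul_mem _ _ hmem2)
  refine (Submodule.finrank_mono hle).trans ?_
  have h1 := finrank_range_le_card (R := K) ![v1, v2]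
  simpa [Set.finrank] using h1

/-- the exponents of the torus parts -/
def e01 : ℕ → ℤ := fun i => ([-4, 0, -1, 2, 3, 4] : List ℤ).getD i 0

def e23 : ℕ → ℤ := fun i => ([-2, 2, 1, 4, 5, 6] : List ℤ).getD i 0

theorem nchk_all : nchk 44 = true ∧ nchk 39 = true ∧ nchk 71 = true ∧ nchk 60 = true := by decide +kernel

theorem qchk8_all : qchk8 (nf 44) (mY e01 44) 0 = true ∧ qchk8 (nf 39) (mY e01 39) 1 = true ∧
    qchk8 (nf 71) (mY e23 71) 2 = true ∧ qchk8 (nf 60) (mY e23 60) 3 = true := by decide +kernel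

theorem rchk8_all : rchk8 (nf 44) (mY e01 44) 5 11 7 24 = true ∧ rchk8 (nf 39) (mY e01 39) 7 11 5 24 = true ∧
    rchk8 (nf 71) (mY e23 71) 18 21 9 10 = true ∧ rchk8 (nf 60) (mY e23 60) 10 18 9 21 = true := by decide +kernel

/-- the conjugation test: `k` scaled by `a²`, `k'` inverted, the others centralized -/
def nrmchk (f : ℕ → ℕ) (m : ℕ → ℤ) (k k' : Fin 4) : Bool :=
  cchk8 f m (bI k) (bI k) 2 && cchk8 f m (71 - bI k) (71 - bI k) (-2) &&
    (cchk8 f m (bI k') (71 - bI k') 2 && cchk8 f m (71 - bI k') (bI k') (-2)) &&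
    (allLt 4 fun n => (n == k.val) || (n == k'.val) ||
      (cchk8 f m (bI (Fin.ofNat 4 n)) (bI (Fin.ofNat 4 n)) 0 &&
        cchk8 f m (71 - bI (Fin.ofNat 4 n)) (71 - bI (Fin.ofNat 4 n)) 0))

theorem nrmchk_all : nrmchk (nf 44) (mY e01 44) 0 1 = true ∧ nrmchk (nf 39) (mY e01 39) 1 0 = true ∧
    nrmchk (nf 71) (mY e23 71) 2 3 = true ∧ nrmchk (nf 60) (mY e23 60) 3 2 = true := by decide +kernel

theorem bI_lt (l : Fin 4) : bI l < 72 := by fin_cases l <;> decide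

theorem nrm_pz {a : K} (ha : a ^ 4 = -1) {k0 : Subfield K} (hk0 : a ^ 2 ∈ k0) {f : ℕ → ℕ} {m : ℕ → ℤ}
    (hf : ∀ j, j < 27 → f j < 27) {k k' : Fin 4} (h : nrmchk f m k k' = true) (l : Fin 4) :
    ∀ A, SlIn k0 A → ∃ A', SlIn k0 A' ∧ pz a f m * Ph l A = Ph l A' * pz a f m := by
  have ha0 := a_ne ha
  unfold nrmchk at h
  rw [Bool.and_eq_true, Bool.and_eq_true, Bool.and_eq_true, Bool.and_eq_true] at h
  obtain ⟨⟨⟨h1, h2⟩, h3, h4⟩, h5⟩ := h
  have hz2 : a ^ (2 : ℤ) = a ^ 2 := by rw [show (2 : ℤ) = ((2 : ℕ) : ℤ) by norm_num, zpow_natCast]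
  have hz2' : a ^ (-2 : ℤ) = (a ^ 2)⁻¹ := by rw [zpow_neg, hz2]
  by_cases hl : l = k
  · subst hl
    refine nrm_of1 k0 (c := a ^ 2) (pow_ne_zero _ ha0) hk0 ?_ ?_
    · rw [conj_eq8 ha hf (bI_lt l) h1, hz2]
    · rw [conj_eq8 ha hf (by have := bI_lt l; omega) h2, hz2']
  by_cases hl' : l = k'
  · subst hl'
    refine nrm_of2 k0 (c := a ^ 2) (pow_ne_zero _ ha0) hk0 ?_ ?_
    · rw [conj_eq8 ha hf (by have := bI_lt l; omega) h3, hz2]
    · rw [conj_eq8 ha hf (bI_lt l) h4, hz2']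
  · have h6 := allLt_spec h5 l.val l.isLt
    have e1 : Fin.ofNat 4 l.val = l := by
      apply Fin.ext
      exact Nat.mod_eq_of_lt l.isLt
    rw [e1, Bool.or_eq_true, Bool.or_eq_true, Bool.and_eq_true, beq_iff_eq, beq_iff_eq] at h6
    rcases h6 with (h6 | h6) | ⟨h6, h7⟩
    · exact absurd (Fin.ext h6) hl
    · exact absurd (Fin.ext h6) hl'
    · refine nrm_of1 k0 (c := 1) one_ne_zero (one_mem _) ?_ ?_
      · rw [conj_eq8 ha hf (bI_lt l) h6, zpow_zero]
      · rw [conj_eq8 ha hf (by have := bI_lt l; omega) h7, zpow_zero, inv_one]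

end

/-- the statement of `coreRow_c` -/
def StC : Prop := ∀ {K : Type} [Field K] [Finite K] {p : ℕ} [Fact p.Prime] [CharP K p] (_ : p ≠ 2)
    {G : Subgroup (GL I27 K)} (_ : G ≤ Zgrp K) {k0 : Subfield K} (_ : FrIn G k0)
    (_ : ∀ k : Fin 4, ∃ y ∈ G, Nrm k0 id y ∧ (y : Matrix I27 I27 K) ^ 4 = Ph k (-1) ∧
      ∃ P : Polynomial K, P ≠ 0 ∧ P.natDegree ≤ 4 ∧
        Module.finrank K (LinearMap.range (Polynomial.aeval ((y : Matrix I27 I27 K).mulVecLin) P)) ≤ 2),
    CoreRow p ↥G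

/-- an element of order 8 -/
theorem exists_a {F : Type} [Field F] [Fintype F] {q : ℕ} (hq : Fintype.card F = q ^ 2) (h8 : q % 8 = 5) :
    ∃ a : F, a ^ 4 = -1 := by
  classical
  obtain ⟨g, hg⟩ := IsCyclic.exists_generator (α := Fˣ)
  have hg' := orderOf_eq_card_of_forall_mem_zpowers hg
  rw [Nat.card_eq_fintype_card, Fintype.card_units, hq] at hg'
  have hd : 8 ∣ q ^ 2 - 1 := by
    obtain ⟨t, rfl⟩ : ∃ t, q = 8 * t + 5 := ⟨q / 8, by omega⟩
    refine ⟨8 * t ^ 2 + 10 * t + 3, ?_⟩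
    have : (8 * t + 5) ^ 2 = 8 * (8 * t ^ 2 + 10 * t + 3) + 1 := by ring
    rw [this, Nat.add_sub_cancel]
  obtain ⟨n, hn⟩ := hd
  have hpos : 0 < q ^ 2 - 1 := by
    have : 5 ≤ q := by omega
    have : 5 ^ 2 ≤ q ^ 2 := Nat.pow_le_pow_left this 2
    omega
  have hn0 : n ≠ 0 := by
    rintro rfl
    omega
  have ho : orderOf (g ^ n) = 8 := by
    rw [orderOf_pow' g hn0, hg', hn, Nat.gcd_eq_right (Dvd.intro_left _ rfl), Nat.mul_div_cancel _ (by omega)]
  refine ⟨((g ^ n : Fˣ) : F), ?_⟩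
  have e1 : (((g ^ n : Fˣ) : F) ^ 4) * (((g ^ n : Fˣ) : F) ^ 4) = 1 := by
    rw [← pow_add, ← Units.val_pow_eq_pow_val, show (4 + 4 : ℕ) = 8 by norm_num, ← ho, pow_orderOf_eq_one,
      Units.val_one]
  rcases mul_self_eq_one_iff.1 e1 with h1 | h1
  · exfalso
    have h2 : (g ^ n) ^ 4 = 1 := Units.ext (by rw [Units.val_pow_eq_pow_val, h1, Units.val_one])
    have h3 := orderOf_dvd_of_pow_eq_one h2
    rw [ho] at h3
    norm_num at h3
  · exact h1

theorem coreRow_2e6_five_of (hC : StC) (hF : StF) (hT : StT) {F : Type} [Field F] [Fintype F] {p q : ℕ}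
    [Fact p.Prime] [CharP F p] (hq : Fintype.card F = q ^ 2) (h8 : q % 8 = 5) : CoreRow p (Z2 F q) := by
  have hpp : p.Prime := Fact.out
  obtain ⟨n, -, hn⟩ := FiniteField.card F p
  have hqd : q ∣ p ^ (n : ℕ) := by rw [← hn, hq, pow_two]; exact dvd_mul_right q q
  obtain ⟨k, -, hk⟩ := (Nat.dvd_prime_pow hpp).1 hqd
  have hp2 : p ≠ 2 := by
    rintro rfl
    rcases Nat.eq_zero_or_pos k with h0 | h0
    · rw [hk, h0, pow_zero] at h8
      norm_num at h8
    · have : 2 ∣ q := by rw [hk]; exact dvd_pow_self 2 h0.ne'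
      omega
  have hcard : Nat.card F = q ^ 2 := by rw [Nat.card_eq_fintype_card, hq]
  obtain ⟨a, ha⟩ := exists_a hq h8
  have ha0 := a_ne ha
  have haq : a ^ q = a ^ (5 : ℤ) := by
    rw [← zpow_natCast a q]
    exact zpow_congr8 ha (by omega)
  have hpw : ∀ {b c : ℤ}, (5 * b - c) % 8 = 0 → (a ^ b) ^ q = a ^ c := by
    intro b c hbc
    rw [← zpow_natCast (a ^ b) q, ← zpow_mul, mul_comm, zpow_mul, zpow_natCast, haq, ← zpow_mul]
    exact zpow_congr8 ha hbc
  have hodd : Odd q := Nat.odd_iff.2 (by omega)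
  have hneg : ∀ {c : F}, c ^ q = c → (-c⁻¹) ^ q = -c⁻¹ := by
    intro c hc
    rw [hodd.neg_pow, inv_pow, hc]
  have hone : ∀ r ∈ [39, 44, 60, 71, 46, 53, 65, 69, 32, 27, 11, 0, 25, 18, 6, 2],
      zU r (1 : F) ∈ Z2 F q ∧ zU r (-1 : F) ∈ Z2 F q := by
    intro r hr
    exact ⟨hF hcard (one_pow q) hr, hF hcard hodd.neg_one_pow hr⟩
  have hnG : ∀ r, r ∈ [39, 44, 60, 71, 46, 53, 65, 69, 32, 27, 11, 0, 25, 18, 6, 2] →
      71 - r ∈ [39, 44, 60, 71, 46, 53, 65, 69, 32, 27, 11, 0, 25, 18, 6, 2] → nG F r ∈ Z2 F q := by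
    intro r hr hr'
    exact mul_mem (mul_mem (hone r hr).1 (hone _ hr').2) (hone r hr).1
  have hh : ∀ i, sI i ∈ [39, 44, 60, 71, 46, 53, 65, 69, 32, 27, 11, 0, 25, 18, 6, 2] →
      71 - sI i ∈ [39, 44, 60, 71, 46, 53, 65, 69, 32, 27, 11, 0, 25, 18, 6, 2] →
      ∀ c : F, c ^ q = c → hU i c ∈ Z2 F q := by
    intro i hi hi' c hc
    refine mul_mem (mul_mem (mul_mem (hF hcard hc hi) (hF hcard (hneg hc) hi')) (hF hcard hc hi)) ?_
    exact mul_mem (mul_mem (hone _ hi).2 (hone _ hi').1) (hone _ hi).2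
  have hmem : ∀ (e : ℕ → ℤ), (5 * e 0 - e 5) % 8 = 0 → (5 * e 2 - e 4) % 8 = 0 → (5 * e 1 - e 1) % 8 = 0 →
      (5 * e 3 - e 3) % 8 = 0 → tG a e ∈ Z2 F q := by
    intro e h1 h2 h3 h4
    have h5 := (hT (K := F) (q := q) (c := a ^ e 0) (zpow_ne_zero _ ha0)).1
    have h6 := (hT (K := F) (q := q) (c := a ^ e 2) (zpow_ne_zero _ ha0)).2
    rw [hpw h1] at h5
    rw [hpw h2] at h6
    exact mul_mem (mul_mem h5 h6) (mul_mem (hh 1 (by decide) (by decide) _ (hpw h3))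
      (hh 3 (by decide) (by decide) _ (hpw h4)))
  have ht01 : tG a e01 ∈ Z2 F q := hmem e01 (by decide) (by decide) (by decide) (by decide)
  have ht23 : tG a e23 ∈ Z2 F q := hmem e23 (by decide) (by decide) (by decide) (by decide)
  set k0 : Subfield F := (iterateFrobenius F p k).eqLocusField (RingHom.id F) with hk0
  have hk0' : ∀ t : F, t ∈ k0 ↔ t ^ q = t := by
    intro t
    have h1 : t ∈ k0 ↔ iterateFrobenius F p k t = t := Iff.rfl
    rw [h1, iterateFrobenius_def, ← hk]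
  have hak : a ^ 2 ∈ k0 := by
    rw [hk0']
    have h1 := hpw (b := 2) (c := 2) (by norm_num)
    rwa [show (2 : ℤ) = ((2 : ℕ) : ℤ) by norm_num, zpow_natCast] at h1
  obtain ⟨n0, n1, n2, n3⟩ := nchk_all
  obtain ⟨q0, q1, q2, q3⟩ := qchk8_all
  obtain ⟨r0, r1, r2, r3⟩ := rchk8_all
  obtain ⟨m0, m1, m2, m3⟩ := nrmchk_all
  have fin : ∀ {e : ℕ → ℤ} {r : ℕ} {k k' : Fin 4} {u w u' w' : ℕ}, tG a e ∈ Z2 F q → nG F r ∈ Z2 F q → r < 72 →
      nchk r = true → qchk8 (nf r) (mY e r) k = true → rchk8 (nf r) (mY e r) u w u' w' = true →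
      nrmchk (nf r) (mY e r) k k' = true → ∃ y ∈ Z2 F q, Nrm k0 id y ∧ (y : Matrix I27 I27 F) ^ 4 = Ph k (-1) ∧
      ∃ P : Polynomial F, P ≠ 0 ∧ P.natDegree ≤ 4 ∧
        Module.finrank F (LinearMap.range (Polynomial.aeval ((y : Matrix I27 I27 F).mulVecLin) P)) ≤ 2 := by
    intro e r k k' u w u' w' ht hn hr h1 h2 h3 h4
    refine ⟨yG5 a e r, mul_mem ht hn, ?_, ?_, Pol5 a, Pol5_ne a, Pol5_deg a, ?_⟩
    · intro l
      rw [coe_yG5 ha e hr h1]
      exact nrm_pz ha hak (nf_lt hr) h4 l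
    · rw [coe_yG5 ha e hr h1]
      exact pz_pow_four ha (nf_lt hr) h2
    · rw [coe_yG5 ha e hr h1]
      exact pz_rank ha (nf_lt hr) h3
  refine hC hp2 (Z2_le F q) (k0 := k0) ?_ ?_
  · intro l t ht
    have ht' : t ^ q = t := (hk0' t).1 ht
    fin_cases l
    · exact ⟨hF hcard ht' (by decide), hF hcard ht' (by decide)⟩
    · exact ⟨hF hcard ht' (by decide), hF hcard ht' (by decide)⟩
    · exact ⟨hF hcard ht' (by decide), hF hcard ht' (by decide)⟩
    · exact ⟨hF hcard ht' (by decide), hF hcard ht' (by decide)⟩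
  · intro l
    fin_cases l
    · exact fin ht01 (hnG 44 (by decide) (by decide)) (by norm_num) n0 q0 r0 m0
    · exact fin ht01 (hnG 39 (by decide) (by decide)) (by norm_num) n1 q1 r1 m1
    · exact fin ht23 (hnG 71 (by decide) (by decide)) (by norm_num) n2 q2 r2 m2
    · exact fin ht23 (hnG 60 (by decide) (by decide)) (by norm_num) n3 q3 r3 m3

end Cfsg.Agent.H361.Hall.E6Five
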