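import Cfsg.Agent.H361.Hall.E6Five
import Cfsg.Agent.H481.E6C.Final

/-!
# S2223, E-10: with `coreRow_c` closed (helper361)
-/

set_option autoImplicit false

namespace Cfsg.Agent.H361.Hall.E6Five

open Cfsg.Lie Cfsg.Agent.H125.Hall Cfsg.Agent.H125.Hall.E6 Cfsg.Agent.H813.Hall.E6Three

theorem stC : StC := fun hp _ hG _ hk hy => Cfsg.Agent.H481.E6C.coreRow_c hp hG hk hy

theorem coreRow_2e6_five_of' (hF : StF) (hT : StT) {F : Type} [Field F] [Fintype F] {p q : ℕ}
    [Fact p.Prime] [CharP F p] (hq : Fintype.card F = q ^ 2) (h8 : q % 8 = 5) : CoreRow p (Z2 F q) :=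
  coreRow_2e6_five_of stC hF hT hq h8

end Cfsg.Agent.H361.Hall.E6Five
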